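import Mathlib

/-! Doubly transitive groups with a regular cyclic subgroup and a Z-group as point stabiliser:
basic facts. -/

set_option autoImplicit false
set_option linter.unusedSectionVars false
set_option linter.style.haveILetI false

namespace Cfsg.Agent.H15Z

open Subgroup MulAction

universe u

section Gen
variable {G : Type*} [Group G] [Finite G]

theorem gen_of_le {K L : Subgroup G} (hK : IsCyclic K) (h : L ≤ K) : ∃ g, zpowers g = L :=
  (L.isCyclic_iff_exists_zpowers_eq_top).1 (isCyclic_of_le h)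

theorem comm_of_cyc {K : Subgroup G} (hK : IsCyclic K) {x y : G} (hx : x ∈ K) (hy : y ∈ K) :
    x * y = y * x := by
  obtain ⟨g, rfl⟩ := gen_of_le hK le_rfl
  obtain ⟨i, rfl⟩ := hx
  obtain ⟨j, rfl⟩ := hy
  exact (Commute.zpow_zpow_self g i j).eq

theorem mem_of_cyc {K H : Subgroup G} (hK : IsCyclic K) (hH : H ≤ K) {x : G} (hx : x ∈ K)
    (h : x ^ Nat.card H = 1) : x ∈ H := by
  classical
  haveI := Fintype.ofFinite K
  have h1 := IsCyclic.card_pow_eq_one_le (α := K) (n := Nat.card H) Nat.card_pos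
  have h2 : Finset.univ.filter (fun a : K => (a : G) ∈ H) ⊆
      Finset.univ.filter (fun a : K => a ^ Nat.card H = 1) := by
    intro a ha
    rw [Finset.mem_filter] at ha ⊢
    refine ⟨ha.1, Subtype.ext ?_⟩
    have := pow_card_eq_one' (G := H) (x := ⟨a, ha.2⟩)
    exact congrArg (fun y : H => (y : G)) this
  have h3 : (Finset.univ.filter (fun a : K => (a : G) ∈ H)).card = Nat.card H := by
    rw [← Nat.card_congr (subgroupOfEquivOfLe hH).toEquiv, Nat.card_eq_fintype_card,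
      Fintype.card_subtype]
    rfl
  have h4 := Finset.eq_of_subset_of_card_le h2 (h3 ▸ h1)
  have : (⟨x, hx⟩ : K) ∈ Finset.univ.filter (fun a : K => a ^ Nat.card H = 1) := by
    rw [Finset.mem_filter]
    exact ⟨Finset.mem_univ _, Subtype.ext h⟩
  rw [← h4, Finset.mem_filter] at this
  exact this.2

theorem ord_two {s : G} (h1 : s ≠ 1) (h2 : s * s = 1) : orderOf s = 2 :=
  orderOf_eq_prime (by rw [pow_two, h2]) h1

theorem cyc_inv {K : Subgroup G} (hK : IsCyclic K) {s t : G} (hs : s ∈ K) (ht : t ∈ K)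
    (s1 : s ≠ 1) (s2 : s * s = 1) (t1 : t ≠ 1) (t2 : t * t = 1) : s = t := by
  have : s ∈ zpowers t := mem_of_cyc hK (zpowers_le.2 ht) hs
    (by rw [Nat.card_zpowers, ord_two t1 t2, pow_two, s2])
  obtain ⟨j, rfl⟩ := this
  rcases Int.even_or_odd' j with ⟨m, rfl | rfl⟩
  · exact absurd (by simp only [zpow_mul, zpow_ofNat, pow_two, t2, one_zpow]) s1
  · simp only [zpow_add, zpow_mul, zpow_ofNat, pow_two, t2, one_zpow, one_mul, pow_one]

theorem pg_of_pow {p : ℕ} {s : G} (h : s ^ p = 1) : IsPGroup p (zpowers s) := by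
  rintro ⟨_, j, rfl⟩
  refine ⟨1, Subtype.ext ?_⟩
  change (s ^ j) ^ p ^ 1 = 1
  rw [pow_one, ← zpow_natCast, ← zpow_mul, mul_comm, zpow_mul, zpow_natCast, h, one_zpow]

theorem z_inv [IsZGroup G] {s t : G} (c : s * t = t * s)
    (s1 : s ≠ 1) (s2 : s * s = 1) (t1 : t ≠ 1) (t2 : t * t = 1) : s = t := by
  haveI : Fact (Nat.Prime 2) := ⟨Nat.prime_two⟩
  have hP : IsPGroup 2 (zpowers s ⊔ zpowers t : Subgroup G) := by
    refine (pg_of_pow (by rw [pow_two, s2])).to_sup_of_normal_right' (pg_of_pow (by rw [pow_two, t2]))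
      (le_trans ?_ (centralizer_le_normalizer _))
    rw [zpowers_le]
    rintro _ ⟨j, rfl⟩
    exact (Commute.zpow_left c.symm j).eq
  exact cyc_inv hP.isCyclic_of_isZGroup (mem_sup_left (mem_zpowers s)) (mem_sup_right (mem_zpowers t))
    s1 s2 t1 t2

end Gen

variable {G Ω : Type u} [Group G] [Finite G] [MulAction G Ω] [Finite Ω]

theorem fix_zpow {x : G} {c : Ω} (h : x • c = c) (j : ℤ) : x ^ j • c = c :=
  mem_stabilizer_iff.1 (zpow_mem (mem_stabilizer_iff.2 h) j)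

theorem fix_pow {x : G} {c : Ω} (h : x • c = c) (j : ℕ) : x ^ j • c = c :=
  mem_stabilizer_iff.1 (pow_mem (mem_stabilizer_iff.2 h) j)

theorem fix_inv {x : G} {c : Ω} (h : x • c = c) : x⁻¹ • c = c := inv_smul_eq_iff.2 h.symm

theorem exists_fix {p : ℕ} (hp : p.Prime) {x : G} (hx : x ^ p = 1) (h : ¬ p ∣ Nat.card Ω) :
    ∃ c : Ω, x • c = c := by
  haveI := Fact.mk hp
  obtain ⟨c, hc⟩ := (pg_of_pow hx).nonempty_fixed_point_of_prime_not_dvd_card Ω h
  exact ⟨c, hc ⟨x, mem_zpowers x⟩⟩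

/-- The setting. -/
structure St (A : Subgroup G) (u : G) (a : Ω) : Prop where
  faith : ∀ g : G, (∀ c : Ω, g • c = c) → g = 1
  t2 : ∀ c d c' d' : Ω, c ≠ d → c' ≠ d' → ∃ g : G, g • c = c' ∧ g • d = d'
  z : IsZGroup (stabilizer G a)
  cyc : IsCyclic A
  tr : ∀ c, ∃ y ∈ A, y • a = c
  uA : u ∈ A
  u1 : u ≠ 1
  u2 : u * u = 1
  three : ∃ c, c ≠ a ∧ c ≠ u • a

namespace St
variable {A : Subgroup G} {u : G} {a : Ω} (h : St A u a)
include h

theorem comm {y z : G} (hy : y ∈ A) (hz : z ∈ A) : y * z = z * y := comm_of_cyc h.cyc hy hz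

theorem sr {y : G} (hy : y ∈ A) {c : Ω} (hc : y • c = c) : y = 1 := by
  refine h.faith y fun d => ?_
  obtain ⟨z, hz, rfl⟩ := h.tr c
  obtain ⟨w, hw, rfl⟩ := h.tr d
  have e : w • a = (w * z⁻¹) • z • a := by rw [mul_smul, inv_smul_smul]
  rw [e, ← mul_smul, h.comm hy (mul_mem hw (inv_mem hz)), mul_smul, hc]

theorem ufpf (c : Ω) : u • c ≠ c := fun e => h.u1 (h.sr h.uA e)

theorem ab : a ≠ u • a := (h.ufpf a).symm

theorem uu (c : Ω) : u • u • c = c := by rw [← mul_smul, h.u2, one_smul]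

theorem uinv : u⁻¹ = u := inv_eq_of_mul_eq_one_right h.u2

theorem cfpf (l : G) (c : Ω) : (l * u * l⁻¹) • c ≠ c := fun e => by
  rw [mul_smul, mul_smul, smul_eq_iff_eq_inv_smul] at e
  exact h.ufpf _ e

theorem zg (e : Ω) : IsZGroup (stabilizer G e) := by
  obtain ⟨g, -, rfl⟩ := h.tr e
  haveI := h.z
  let f : stabilizer G (g • a) →* stabilizer G a :=
    ((MulAut.conj g⁻¹).toMonoidHom.comp (stabilizer G (g • a)).subtype).codRestrict _ fun x => by
      change (g⁻¹ * x * g⁻¹⁻¹) • a = a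
      rw [inv_inv, mul_smul, mul_smul, mem_stabilizer_iff.1 x.2, inv_smul_smul]
  refine IsZGroup.of_injective (f := f) fun x y e => Subtype.ext ?_
  have : (MulAut.conj g⁻¹) (x : G) = (MulAut.conj g⁻¹) y := congrArg Subtype.val e
  exact (MulAut.conj g⁻¹).injective this

theorem ucyc (e : Ω) : IsCyclic (⁅stabilizer G e, stabilizer G e⁆ : Subgroup G) := by
  haveI := h.zg e
  rw [← map_subtype_commutator]
  haveI := IsZGroup.isCyclic_commutator (stabilizer G e)
  exact isCyclic_of_surjective _ ((stabilizer G e).subtype.subgroupMap_surjective _)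

omit h in
theorem uconj {e : Ω} {x g : G} (hx : x ∈ (⁅stabilizer G e, stabilizer G e⁆ : Subgroup G))
    (hg : g • e = e) : g * x * g⁻¹ ∈ (⁅stabilizer G e, stabilizer G e⁆ : Subgroup G) := by
  rw [← map_subtype_commutator] at hx ⊢
  obtain ⟨x, hx, rfl⟩ := hx
  exact ⟨_, (inferInstance : (commutator (stabilizer G e)).Normal).conj_mem x hx ⟨g, hg⟩, rfl⟩

omit h in
theorem ufix {e : Ω} {x : G} (hx : x ∈ (⁅stabilizer G e, stabilizer G e⁆ : Subgroup G)) :
    x • e = e := by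
  rw [← map_subtype_commutator] at hx
  obtain ⟨x, -, rfl⟩ := hx
  exact x.2

theorem semi {e f : Ω} (hef : e ≠ f) {x : G}
    (hx : x ∈ (⁅stabilizer G e, stabilizer G e⁆ : Subgroup G)) (hf : x • f = f) : x = 1 := by
  refine h.faith x fun d => ?_
  by_cases hd : e = d
  · exact hd ▸ ufix hx
  obtain ⟨g, g1, rfl⟩ := h.t2 e f e d hef hd
  obtain ⟨v, hv⟩ := gen_of_le (h.ucyc e) le_rfl
  have h1 := uconj (hv ▸ mem_zpowers v) (fix_inv g1)
  rw [← hv] at hx h1
  obtain ⟨j, rfl⟩ := hx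
  obtain ⟨r, hr⟩ := h1
  have : g⁻¹ * v ^ j * g⁻¹⁻¹ = (v ^ j) ^ r := by
    rw [← conj_zpow, ← hr, ← zpow_mul, ← zpow_mul, mul_comm]
  have h2 := fix_zpow hf r
  rw [← this, inv_inv, mul_smul, mul_smul, inv_smul_eq_iff] at h2
  exact h2

theorem p1 {e f : Ω} (hef : e ≠ f) {g x : G} (hg : g • e = e) (hx : x • e = e)
    (hf : (g * x * g⁻¹ * x⁻¹) • f = f) : g * x = x * g := by
  have := h.semi hef (commutator_mem_commutator (mem_stabilizer_iff.2 hg) (mem_stabilizer_iff.2 hx)) hf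
  exact commutatorElement_eq_one_iff_mul_comm.1 this

theorem abel {e f : Ω} (hef : e ≠ f) {g x : G} (hg : g • e = e) (hx : x • e = e)
    (hg' : g • f = f) (hx' : x • f = f) : g * x = x * g :=
  h.p1 hef hg hx (by rw [mul_smul, mul_smul, mul_smul, fix_inv hx', fix_inv hg', hx', hg'])

theorem inv_eq {e : Ω} {s t : G} (hs : s • e = e) (ht : t • e = e) (c : s * t = t * s)
    (s1 : s ≠ 1) (s2 : s * s = 1) (t1 : t ≠ 1) (t2 : t * t = 1) : s = t := by
  haveI := h.zg e
  have := z_inv (G := stabilizer G e) (s := ⟨s, hs⟩) (t := ⟨t, ht⟩) (Subtype.ext c)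
    (fun e => s1 (congrArg Subtype.val e)) (Subtype.ext s2)
    (fun e => t1 (congrArg Subtype.val e)) (Subtype.ext t2)
  exact congrArg Subtype.val this

theorem kcyc {e f : Ω} (hef : e ≠ f) : IsCyclic (stabilizer G e ⊓ stabilizer G f : Subgroup G) := by
  haveI := h.zg e
  haveI : IsZGroup (stabilizer G e ⊓ stabilizer G f : Subgroup G) :=
    IsZGroup.of_injective (inclusion_injective (inf_le_left : _ ⊓ stabilizer G f ≤ _))
  letI : CommGroup (stabilizer G e ⊓ stabilizer G f : Subgroup G) :=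
    { (inferInstance : Group (stabilizer G e ⊓ stabilizer G f : Subgroup G)) with
      mul_comm := fun x y => Subtype.ext (h.abel hef x.2.1 y.2.1 x.2.2 y.2.2) }
  haveI := CommGroup.isNilpotent (G := (stabilizer G e ⊓ stabilizer G f : Subgroup G))
  infer_instance

theorem sq_of_three {x : G} {c : Ω} (xa : x • a = a) (xb : x • u • a = u • a) (xc : x • c = c)
    (ca : c ≠ a) (cb : c ≠ u • a) (hx : u * x * u = x⁻¹) : x * x = 1 := by
  obtain ⟨g, g1, g2⟩ := h.t2 c a c (u • a) ca cb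
  have h1 : g * x = x * g := h.p1 cb g1 xc (by
    rw [mul_smul, mul_smul, mul_smul, fix_inv xb, ← g2, inv_smul_smul, xa])
  have h2 : g⁻¹ * u * x * (g⁻¹ * u)⁻¹ = x⁻¹ := by
    rw [mul_inv_rev, h.uinv, inv_inv]
    calc g⁻¹ * u * x * (u * g) = g⁻¹ * (u * x * u) * g := by group
      _ = g⁻¹ * (g * x * g⁻¹)⁻¹ * g := by rw [hx, h1]; group
      _ = x⁻¹ := by group
  have h3 : g⁻¹ * u * x = x * (g⁻¹ * u) := h.p1 h.ab (by rw [mul_smul, ← g2, inv_smul_smul]) xa (by
    rw [h2, mul_smul, fix_inv xb, fix_inv xb])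
  rw [h3, mul_inv_cancel_right] at h2
  exact mul_eq_one_iff_eq_inv.2 h2

theorem conj_inv {t g : G} (t1 : t ≠ 1) (t2 : t * t = 1) {c d c' d' : Ω} (cd : c' ≠ d')
    (tc : t • c = c) (td : t • d = d) (tc' : t • c' = c') (td' : t • d' = d')
    (gc : g • c = c') (gd : g • d = d') : g * t = t * g := by
  have e1 : (g * t * g⁻¹) • c' = c' := by rw [← gc, mul_smul, mul_smul, inv_smul_smul, tc]
  have e2 : (g * t * g⁻¹) • d' = d' := by rw [← gd, mul_smul, mul_smul, inv_smul_smul, td]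
  have := h.inv_eq e1 tc' (h.abel cd e1 tc' e2 td') (fun e => t1 (conj_eq_one_iff.1 e))
    (by rw [conj_mul, t2, mul_one, mul_inv_cancel]) t1 t2
  exact mul_inv_eq_iff_eq_mul.1 this

theorem trA {t : G} (t1 : t ≠ 1) (t2 : t * t = 1) (ta : t • a = a) (tu : t * u = u * t) {c : Ω}
    (tc : t • c = c) : ∃ z ∈ A, z * t = t * z ∧ z • a = c := by
  obtain ⟨z, hz, rfl⟩ := h.tr c
  have tb : t • u • a = u • a := by rw [← mul_smul, tu, mul_smul, ta]
  refine ⟨z, hz, h.conj_inv t1 t2 (h.ufpf (z • a)).symm ta tb tc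
    (by rw [← mul_smul, tu, mul_smul, tc]) rfl ?_, rfl⟩
  rw [← mul_smul, h.comm hz h.uA, mul_smul]

/-- The involutions interchanging `a` and `u • a` fall into at most two classes. -/
theorem cls3 {s s' : G} (s2 : s * s = 1) (sa : s • a = u • a) (s2' : s' * s' = 1)
    (sa' : s' • a = u • a) {c : Ω} (hc : s • c = c) :
    ∃ l, l • a = a ∧ l • u • a = u • a ∧ u * l * u = l⁻¹ ∧
      (s' = l * s * l⁻¹ ∨ s' = l * u * l⁻¹) := by
  let L : Subgroup G :=
    { carrier := {k | k • a = a ∧ k • u • a = u • a ∧ u * k * u = k⁻¹}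
      one_mem' := ⟨one_smul _ _, one_smul _ _, by rw [mul_one, h.u2, inv_one]⟩
      mul_mem' := by
        rintro x y ⟨x1, x2, x3⟩ ⟨y1, y2, y3⟩
        refine ⟨by rw [mul_smul, y1, x1], by rw [mul_smul, y2, x2], ?_⟩
        rw [h.abel h.ab x1 y1 x2 y2, mul_inv_rev, ← x3, ← y3, ← h.abel h.ab x1 y1 x2 y2]
        calc u * (x * y) * u = u * x * (u * u) * y * u := by rw [h.u2]; group
          _ = _ := by group
      inv_mem' := by
        rintro x ⟨x1, x2, x3⟩
        refine ⟨fix_inv x1, fix_inv x2, ?_⟩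
        rw [← x3]
        calc u * (u * x * u) * u = (u * u) * x * (u * u) := by group
          _ = x := by rw [h.u2]; group
          _ = (u * x * u)⁻¹ := by rw [x3, inv_inv] }
  obtain ⟨g, hg⟩ := gen_of_le (L := L) (h.kcyc h.ab) fun k hk => ⟨hk.1, hk.2.1⟩
  have mem : ∀ s : G, s * s = 1 → s • a = u • a → s * u ∈ zpowers g := fun s s2 sa => by
    rw [hg]
    have sb : s • u • a = a := by rw [← sa, ← mul_smul, s2, one_smul]
    refine ⟨by rw [mul_smul, sb], by rw [mul_smul, h.uu, sa], ?_⟩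
    rw [mul_inv_rev, h.uinv, inv_eq_of_mul_eq_one_right s2, mul_assoc, mul_assoc, h.u2, mul_one]
  have hL : ∀ m : ℤ, g ^ m ∈ L := fun m => hg ▸ zpow_mem (mem_zpowers g) m
  have key : ∀ j m : ℤ, g ^ (j + 2 * m) * u = g ^ m * (g ^ j * u) * (g ^ m)⁻¹ := fun j m => by
    have := (hL m).2.2
    rw [← this]
    calc g ^ (j + 2 * m) * u = g ^ m * g ^ j * g ^ m * u := by
          rw [← zpow_add, ← zpow_add]; congr 2; ring
      _ = g ^ m * g ^ j * (u * u) * g ^ m * u := by rw [h.u2, mul_one]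
      _ = _ := by group
  obtain ⟨j, hj⟩ := mem s s2 sa
  obtain ⟨j', hj'⟩ := mem s' s2' sa'
  have e : s = g ^ j * u := by simp only at hj; rw [hj, mul_assoc, h.u2, mul_one]
  have e' : s' = g ^ j' * u := by simp only at hj'; rw [hj', mul_assoc, h.u2, mul_one]
  have odd : ∀ (j : ℤ) (c : Ω), (g ^ j * u) • c = c → Odd j := fun j c hc => by
    rw [← Int.not_even_iff_odd]
    rintro ⟨m, rfl⟩
    have := key 0 m
    rw [zero_add, two_mul, zpow_zero, one_mul] at this
    exact h.cfpf _ c (this ▸ hc)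
  obtain ⟨m, rfl⟩ := odd j c (e ▸ hc)
  obtain ⟨m', rfl | rfl⟩ := Int.even_or_odd' j'
  · refine ⟨g ^ m', (hL _).1, (hL _).2.1, (hL _).2.2, Or.inr ?_⟩
    have := key 0 m'
    rw [zero_add, zpow_zero, one_mul] at this
    rw [e', this]
  refine ⟨g ^ (m' - m), (hL _).1, (hL _).2.1, (hL _).2.2, Or.inl ?_⟩
  rw [e, e', ← key]
  congr 2
  ring

theorem cls {s s' : G} (s2 : s * s = 1) (sa : s • a = u • a) (s2' : s' * s' = 1)
    (sa' : s' • a = u • a) {c c' : Ω} (hc : s • c = c) (hc' : s' • c' = c') :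
    ∃ l, l • a = a ∧ l • u • a = u • a ∧ u * l * u = l⁻¹ ∧ s' = l * s * l⁻¹ := by
  obtain ⟨l, l1, l2, l3, e | e⟩ := h.cls3 s2 sa s2' sa' hc
  · exact ⟨l, l1, l2, l3, e⟩
  · exact absurd (e ▸ hc') (h.cfpf l c')

end St

end Cfsg.Agent.H15Z
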