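import Cfsg.Agent.H15Z.A

/-! The case in which an involution fixes exactly two points. -/

set_option autoImplicit false
set_option linter.unusedSectionVars false
set_option linter.style.haveILetI false

namespace Cfsg.Agent.H15Z

open Subgroup MulAction

universe u

theorem exists_compl {G : Type*} [Group G] [Finite G] (Y : Subgroup G) [IsZGroup Y]
    (hY : ¬ 2 ∣ Y.index) (h2 : 2 ∣ Nat.card G) : ∃ N P : Subgroup G, N.Normal ∧ ¬ 2 ∣ Nat.card N ∧
      IsPGroup 2 P ∧ IsCyclic P ∧ IsComplement' N P := by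
  haveI : Fact (Nat.Prime 2) := ⟨Nat.prime_two⟩
  obtain ⟨Q⟩ : Nonempty (Sylow 2 Y) := inferInstance
  have h1 : IsPGroup 2 ((Q : Subgroup Y).map Y.subtype) := Q.2.map _
  have h3 : ¬ 2 ∣ ((Q : Subgroup Y).map Y.subtype).index := by
    rw [index_map_subtype]
    exact Nat.prime_two.not_dvd_mul Q.not_dvd_index hY
  let P := h1.toSylow h3
  have hc : IsCyclic P := isCyclic_of_surjective _ (Y.subtype.subgroupMap_surjective Q)
  have hm : (Nat.card G).minFac = 2 := (Nat.minFac_eq_two_iff _).2 h2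
  have := hc.isComplement' hm
  exact ⟨_, P, inferInstance, this.index_eq_card ▸ P.not_dvd_index, P.2, hc, this⟩

variable {G Ω : Type u} [Group G] [Finite G] [MulAction G Ω] [Finite Ω]

/-- The conclusion. -/
structure Good (A : Subgroup G) (u : G) (a : Ω) : Prop where
  t3 : ∀ c c', c ≠ a → c ≠ u • a → c' ≠ a → c' ≠ u • a →
    ∃ k : G, k • a = a ∧ k • u • a = u • a ∧ k • c = c'
  sh : ∀ (k : G) c, k • a = a → k • u • a = u • a → c ≠ a → c ≠ u • a → k • c = c → k = 1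
  d : ∀ k : G, k • a = a → k * u = u * k → k ≠ 1 → k * k = 1 ∧ ∀ z ∈ A, k * z * k⁻¹ = z⁻¹
  e : ∀ s : G, s • a = u • a → s • u • a = a → (∀ c : Ω, s • c ≠ c) →
    ∃ l : G, l • a = a ∧ l • u • a = u • a ∧ s = l * u * l⁻¹
  f : ∃ k : G, k • a = a ∧ k • u • a = u • a ∧ k ≠ 1 ∧ k * k = 1
  U : ∀ c, c ≠ a → ∃ x ∈ (⁅stabilizer G a, stabilizer G a⁆ : Subgroup G), x • u • a = c

namespace St
variable {A : Subgroup G} {u : G} {a : Ω} (h : St A u a)
include h

theorem even : 2 ∣ Nat.card Ω := by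
  by_contra hh
  obtain ⟨c, hc⟩ := exists_fix (Ω := Ω) Nat.prime_two (x := u) (by rw [pow_two, h.u2]) hh
  exact h.ufpf c hc

theorem ntrans {N : Subgroup G} [hN : N.Normal] (hne : N ≠ ⊥) : IsPretransitive N Ω := by
  obtain ⟨⟨x, hx⟩, x1⟩ := ne_bot_iff_exists_ne_one.1 hne
  have : ∃ c : Ω, x • c ≠ c := by
    by_contra! hh
    exact x1 (Subtype.ext (h.faith x hh))
  obtain ⟨c, hc⟩ := this
  refine ⟨fun d e => ?_⟩
  by_cases hde : d = e
  · exact ⟨1, by rw [one_smul, hde]⟩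
  obtain ⟨g, g1, g2⟩ := h.t2 c (x • c) d e hc.symm hde
  refine ⟨⟨g * x * g⁻¹, hN.conj_mem x hx g⟩, ?_⟩
  change (g * x * g⁻¹) • d = e
  rw [← g1, mul_smul, mul_smul, inv_smul_smul, g2]

theorem exists_t : ∃ t : G, t ≠ 1 ∧ t * t = 1 ∧ t • a = a ∧ t • u • a = u • a := by
  haveI : Fact (Nat.Prime 2) := ⟨Nat.prime_two⟩
  by_cases hB : 2 ∣ Nat.card (stabilizer G a)
  · obtain ⟨⟨s, sa⟩, hs⟩ := exists_prime_orderOf_dvd_card' 2 hB
    rw [orderOf_mk] at hs
    have s2 : s ^ 2 = 1 := hs ▸ pow_orderOf_eq_one s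
    obtain ⟨c, hc, ac⟩ := (pg_of_pow s2).exists_fixed_point_of_prime_dvd_card_of_fixed_point Ω
      h.even (a := a) (by rintro ⟨_, j, rfl⟩; exact fix_zpow sa j)
    obtain ⟨g, g1, g2⟩ := h.t2 a c a (u • a) ac h.ab
    refine ⟨g * s * g⁻¹, fun e => ?_, by rw [conj_mul, ← pow_two, s2, mul_one, mul_inv_cancel], ?_, ?_⟩
    · rw [conj_eq_one_iff.1 e, orderOf_one] at hs
      omega
    · rw [mul_smul, mul_smul, fix_inv g1, mem_stabilizer_iff.1 sa, g1]
    · rw [← g2, mul_smul, mul_smul, inv_smul_smul]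
      exact congrArg _ (hc ⟨s, mem_zpowers s⟩)
  exfalso
  haveI := h.cyc
  have hc : IsComplement' A (stabilizer G a) :=
    isComplement'_stabilizer a (fun y hy => Subtype.ext (h.sr y.2 hy)) fun g => by
      obtain ⟨y, hy, e⟩ := h.tr (g • a)
      exact ⟨⟨y⁻¹, inv_mem hy⟩, inv_smul_eq_iff.2 e.symm⟩
  obtain ⟨N, P, hN, h1, h2, -, h3⟩ := exists_compl A (hc.symm.index_eq_card ▸ hB)
    (ord_two h.u1 h.u2 ▸ orderOf_dvd_natCard u)
  by_cases hne : N = ⊥
  · rw [hne, isComplement'_bot_left] at h3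
    have := ((h2.to_le (K := P) (H := stabilizer G a) (h3 ▸ le_top)).card_eq_or_dvd).resolve_right hB
    obtain ⟨c, ca, cb⟩ := h.three
    obtain ⟨g, g1, g2⟩ := h.t2 a c a (u • a) ca.symm h.ab
    have : g ∈ (⊥ : Subgroup G) := card_eq_one.1 this ▸ mem_stabilizer_iff.2 g1
    rw [mem_bot.1 this, one_smul] at g2
    exact cb g2
  · haveI := h.ntrans hne
    exact h1 (h.even.trans (index_stabilizer_of_transitive N a ▸ index_dvd_card _))

section Two
variable {t : G} (t1 : t ≠ 1) (t2 : t * t = 1) (ta : t • a = a) (tb : t • u • a = u • a)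
  (h2 : ∀ c : Ω, t • c = c → c = a ∨ c = u • a)
include t1 t2 ta tb h2

theorem fix2 {g : G} {c : Ω} (hc : (g * t * g⁻¹) • c = c) : c = g • a ∨ c = g • u • a := by
  rw [mul_smul, mul_smul, smul_eq_iff_eq_inv_smul] at hc
  simpa only [inv_smul_eq_iff] using h2 _ hc

theorem invs {c d e : Ω} (hd : d ≠ c) (he : e ≠ c) :
    ∃ g : G, g • a = c ∧ (g * t * g⁻¹) • d = e := by
  have : ∀ x : {x // x ≠ c}, ∃ g : G, g • a = c ∧ g • u • a = x := fun x => h.t2 _ _ _ _ h.ab x.2.symm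
  choose g g1 g2 using this
  have sc : ∀ x, (g x * t * (g x)⁻¹) • c = c := fun x => by
    rw [mul_smul, mul_smul, inv_smul_eq_iff.2 (g1 x).symm, ta, g1]
  have s2 : ∀ x, g x * t * (g x)⁻¹ * (g x * t * (g x)⁻¹) = 1 := fun x => by
    rw [conj_mul, t2, mul_one, mul_inv_cancel]
  let F : {x // x ≠ c} → {x // x ≠ c} := fun x => ⟨(g x * t * (g x)⁻¹) • d, fun e =>
    hd (MulAction.injective _ (e.trans (sc x).symm))⟩
  have hF : Function.Injective F := fun x y e => by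
    have e : (g x * t * (g x)⁻¹) • d = (g y * t * (g y)⁻¹) • d := congrArg Subtype.val e
    have e1 : g y * (g x)⁻¹ * (g x * t * (g x)⁻¹) * (g y * (g x)⁻¹)⁻¹ = g y * t * (g y)⁻¹ := by group
    have := h.p1 hd.symm (g := g y * (g x)⁻¹) (by
      rw [mul_smul, inv_smul_eq_iff.2 (g1 x).symm, g1]) (sc x) (by
      rw [e1, inv_eq_of_mul_eq_one_right (s2 x), mul_smul, e, ← mul_smul, s2, one_smul])
    rw [this, mul_inv_cancel_right] at e1
    have h3 : (g x * t * (g x)⁻¹) • y.1 = y.1 := by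
      rw [e1, ← g2, mul_smul, mul_smul, inv_smul_smul, tb]
    rcases h.fix2 t1 t2 ta tb h2 h3 with e | e
    · exact absurd (e.trans (g1 x)) y.2
    · exact Subtype.ext (e.trans (g2 x)).symm
  obtain ⟨x, hx⟩ := Finite.injective_iff_surjective.1 hF ⟨e, he⟩
  exact ⟨g x, g1 x, congrArg Subtype.val hx⟩

theorem t3' {c c' : Ω} (ca : c ≠ a) (cb : c ≠ u • a) (ca' : c' ≠ a) (cb' : c' ≠ u • a) :
    ∃ k : G, k • a = a ∧ k • u • a = u • a ∧ u * k * u = k⁻¹ ∧ k • c = c' := by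
  obtain ⟨g, g1, g2⟩ := h.invs t1 t2 ta tb h2 ca.symm cb.symm
  obtain ⟨g', g1', g2'⟩ := h.invs t1 t2 ta tb h2 ca'.symm cb'.symm
  have s2 : ∀ g : G, g * t * g⁻¹ * (g * t * g⁻¹) = 1 := fun g => by
    rw [conj_mul, t2, mul_one, mul_inv_cancel]
  have sc : ∀ g : G, (g * t * g⁻¹) • g • a = g • a := fun g => by
    rw [mul_smul, mul_smul, inv_smul_smul, ta]
  obtain ⟨l, l1, l2, l3, e⟩ := h.cls (s2 g) g2 (s2 g') g2' (sc g) (sc g')
  have h3 : (g * t * g⁻¹) • l⁻¹ • c' = l⁻¹ • c' := by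
    have := sc g'
    rwa [e, g1', mul_smul, mul_smul, smul_eq_iff_eq_inv_smul] at this
  have sb : (g * t * g⁻¹) • u • a = a := by rw [← g2, ← mul_smul, s2, one_smul]
  have st := h.conj_inv t1 t2 h.ab.symm ta tb tb ta g2 sb
  have ut := h.conj_inv t1 t2 h.ab.symm ta tb tb ta rfl (h.uu a)
  have h4 : (g * t * g⁻¹) • t • c = t • c := by rw [← mul_smul, st, mul_smul, ← g1, sc]
  have h5 : t • c = g • u • a := (h.fix2 t1 t2 ta tb h2 h4).resolve_left fun e =>
    (h2 c (e.trans g1)).elim ca cb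
  rcases h.fix2 t1 t2 ta tb h2 h3 with e | e
  · exact ⟨l, l1, l2, l3, by rw [← g1, ← e, smul_inv_smul]⟩
  · refine ⟨l * t, by rw [mul_smul, ta, l1], by rw [mul_smul, tb, l2], ?_,
      by rw [mul_smul, h5, ← e, smul_inv_smul]⟩
    rw [h.abel h.ab l1 ta l2 tb, mul_inv_rev, ← l3, inv_eq_of_mul_eq_one_right t2,
      ← h.abel h.ab l1 ta l2 tb, mul_assoc (u * l), ut]
    group

theorem sh' {k : G} {c : Ω} (ka : k • a = a) (kb : k • u • a = u • a) (ca : c ≠ a) (cb : c ≠ u • a)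
    (kc : k • c = c) : k = 1 := by
  refine h.faith k fun d => ?_
  by_cases da : d = a
  · rw [da, ka]
  by_cases db : d = u • a
  · rw [db, kb]
  obtain ⟨l, l1, l2, -, rfl⟩ := h.t3' t1 t2 ta tb h2 ca cb da db
  rw [← mul_smul, h.abel h.ab ka l1 kb l2, mul_smul, kc]

theorem kinv {k : G} (ka : k • a = a) (kb : k • u • a = u • a) : u * k * u = k⁻¹ := by
  obtain ⟨c, ca, cb⟩ := h.three
  obtain ⟨l, l1, l2, l3, e⟩ := h.t3' t1 t2 ta tb h2 ca cb (c' := k • c)
    (fun e => ca (MulAction.injective k (e.trans ka.symm)))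
    (fun e => cb (MulAction.injective k (e.trans kb.symm)))
  have := h.sh' t1 t2 ta tb h2 (k := k⁻¹ * l) (by rw [mul_smul, l1, fix_inv ka])
    (by rw [mul_smul, l2, fix_inv kb]) ca cb (by rw [mul_smul, e, inv_smul_smul])
  rwa [inv_mul_eq_one.1 this]

theorem swap_sq {s : G} {c d : Ω} (cd : c ≠ d) (sc : s • c = d) (sd : s • d = c) : s * s = 1 := by
  obtain ⟨g, g1, g2⟩ := h.t2 c d a (u • a) cd h.ab
  have := h.kinv t1 t2 ta tb h2 (k := g * s * g⁻¹ * u)
    (by rw [mul_smul, ← g2, mul_smul, mul_smul, inv_smul_smul, sd, g1])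
    (by rw [mul_smul, h.uu, ← g2, ← g1, mul_smul, mul_smul, inv_smul_smul, sc])
  rw [mul_inv_rev, h.uinv, mul_assoc, mul_assoc, h.u2, mul_one, mul_right_inj,
    ← mul_eq_one_iff_eq_inv, conj_mul] at this
  exact conj_eq_one_iff.1 this

theorem good_two : Good A u a := by
  have sq : ∀ k : G, k • a = a → k * u = u * k → k • u • a = u • a ∧ k * k = 1 := fun k ka ku => by
    have kb : k • u • a = u • a := by rw [← mul_smul, ku, mul_smul, ka]
    have := h.kinv t1 t2 ta tb h2 ka kb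
    rw [mul_assoc, ku, ← mul_assoc, h.u2, one_mul] at this
    exact ⟨kb, mul_eq_one_iff_eq_inv.2 this⟩
  refine ⟨fun c c' h1 h3 h4 h5 => ?_, fun k c => h.sh' t1 t2 ta tb h2, fun k ka ku k1 => ?_,
    fun s sa sb hs => ?_, ⟨t, ta, tb, t1, t2⟩, fun c ca => ?_⟩
  · obtain ⟨k, k1, k2, -, k3⟩ := h.t3' t1 t2 ta tb h2 h1 h3 h4 h5
    exact ⟨k, k1, k2, k3⟩
  · refine ⟨(sq k ka ku).2, fun z hz => ?_⟩
    by_cases ca : z • a = a
    · rw [h.sr hz ca]; group
    by_cases cb : z • a = u • a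
    · have : u⁻¹ * z = 1 := h.sr (mul_mem (inv_mem h.uA) hz) (by rw [mul_smul, cb, inv_smul_smul])
      rw [← inv_mul_eq_one.1 this, ku, h.uinv, mul_inv_cancel_right]
    obtain ⟨g, g1, g2⟩ := h.t2 a (u • a) (z • a) (u • z • a) h.ab (h.ufpf _).symm
    obtain ⟨l, l1, l2, -, l3⟩ := h.t3' t1 t2 ta tb h2 ca cb (c' := g⁻¹ • a)
      (fun e => ca (by rw [inv_smul_eq_iff, g1] at e; exact e.symm))
      (fun e => cb (by rw [inv_smul_eq_iff, g2] at e; rw [e, h.uu, ← e]))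
    have f1 : (g * l) • a = z • a := by rw [mul_smul, l1, g1]
    have f2 : (g * l) • u • a = u • z • a := by rw [mul_smul, l2, g2]
    have f3 : (g * l) • z • a = a := by rw [mul_smul, l3, smul_inv_smul]
    generalize g * l = f at f1 f2 f3
    have ff := h.swap_sq t1 t2 ta tb h2 (Ne.symm ca) f1 f3
    have f4 : f • u • z • a = u • a := by rw [← f2, ← mul_smul, ff, one_smul]
    have fu : (u * f)⁻¹ * (f * u) = 1 := h.sh' t1 t2 ta tb h2
      (by rw [mul_smul, inv_smul_eq_iff, mul_smul, mul_smul, f2, f1])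
      (by rw [mul_smul, inv_smul_eq_iff, mul_smul, mul_smul, f2, h.uu, h.uu, f1]) ca cb
      (by rw [mul_smul, inv_smul_eq_iff, mul_smul, mul_smul, f4, f3])
    rw [inv_mul_eq_one] at fu
    have ka' : (z⁻¹ * f) • a = a := by rw [mul_smul, f1, inv_smul_smul]
    have ku' : z⁻¹ * f * u = u * (z⁻¹ * f) := by
      rw [mul_assoc, ← fu, ← mul_assoc, h.comm (inv_mem hz) h.uA, mul_assoc]
    have k1' : z⁻¹ * f ≠ 1 := fun e => by
      rw [inv_mul_eq_one] at e
      subst e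
      exact cb (by rw [cyc_inv h.cyc hz h.uA (fun e => ca (by rw [e, one_smul])) ff h.u1 h.u2])
    have := h.inv_eq ka' ka (h.abel h.ab ka' ka (sq _ ka' ku').1 (sq _ ka ku).1) k1' (sq _ ka' ku').2
      k1 (sq _ ka ku).2
    rw [inv_mul_eq_iff_eq_mul.1 this] at ff
    rw [inv_eq_of_mul_eq_one_right (sq _ ka ku).2, eq_inv_iff_mul_eq_one, ← conj_eq_one_iff (a := z),
      ← ff]
    group
  · obtain ⟨c, ca, cb⟩ := h.three
    obtain ⟨g, g1, g2⟩ := h.invs t1 t2 ta tb h2 ca.symm cb.symm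
    obtain ⟨l, l1, l2, -, e | e⟩ := h.cls3 (s := g * t * g⁻¹)
      (by rw [conj_mul, t2, mul_one, mul_inv_cancel]) g2 (h.swap_sq t1 t2 ta tb h2 h.ab sa sb) sa
      (c := g • a) (by rw [mul_smul, mul_smul, inv_smul_smul, ta])
    · refine absurd ?_ (hs (l • g • a))
      rw [e, mul_smul, mul_smul, inv_smul_smul, mul_smul, mul_smul, inv_smul_smul, ta]
    · exact ⟨l, l1, l2, e⟩
  · obtain ⟨g, g1, g2⟩ := h.invs t1 t2 ta tb h2 h.ab.symm ca
    refine ⟨_, commutator_mem_commutator (mem_stabilizer_iff.2 g1) (mem_stabilizer_iff.2 ta), ?_⟩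
    rw [commutatorElement_def, mul_smul, fix_inv tb, g2]

end Two

end St

end Cfsg.Agent.H15Z
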