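import Cfsg.Agent.H15Z.B

/-! An involution fixes exactly two points (induction on the degree). -/

set_option autoImplicit false
set_option linter.unusedSectionVars false
set_option linter.style.haveILetI false

namespace Cfsg.Agent.H15Z

open Subgroup MulAction

universe u

variable {G Ω : Type u} [Group G] [Finite G] [MulAction G Ω] [Finite Ω]

theorem nat_pow {G : Type*} [Group G] [Finite G] {x g : G} (h : x ∈ zpowers g) : ∃ n : ℕ, g ^ n = x :=
  (Submonoid.mem_powers_iff _ _).1 (mem_powers_iff_mem_zpowers.2 h)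

theorem pow_even_fix {k : G} {c : Ω} (h : k • k • c = c) (j : ℕ) : k ^ (2 * j) • c = c := by
  rw [pow_mul, pow_two]
  exact fix_pow (by rw [mul_smul, h]) j

namespace St
variable {A : Subgroup G} {u : G} {a : Ω} (h : St A u a)
include h

theorem contra {t : G} (t1 : t ≠ 1) (t2 : t * t = 1) (ta : t • a = a) (tb : t • u • a = u • a)
    {c0 : Ω} (c0t : t • c0 = c0) (c0a : c0 ≠ a) (c0b : c0 ≠ u • a)
    (hd : ∀ k : G, k * t = t * k → k • a = a → k * u = u * k → (∃ c : Ω, t • c = c ∧ k • c ≠ c) →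
      (∀ c : Ω, t • c = c → k • k • c = c) ∧
        ∀ z ∈ A, z * t = t * z → ∀ c : Ω, t • c = c → k • z • c = z⁻¹ • k • c)
    (he : ∀ s : G, s * t = t * s → s • a = u • a → s • u • a = a → (∀ c : Ω, t • c = c → s • c ≠ c) →
      ∃ l : G, l • a = a ∧ l • u • a = u • a ∧ ∀ c : Ω, t • c = c → s • l • c = l • u • c)
    (hf : ∃ k : G, k • a = a ∧ k • u • a = u • a ∧ (∃ c : Ω, t • c = c ∧ k • c ≠ c) ∧
      ∀ c : Ω, t • c = c → k • k • c = c) : False := by
  have ut := h.conj_inv t1 t2 h.ab.symm ta tb tb ta rfl (h.uu a)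
  have pres : ∀ {g : G} {c : Ω}, g * t = t * g → t • c = c → t • g • c = g • c := fun {g c} e hc => by
    rw [← mul_smul, ← e, mul_smul, hc]
  -- step 1: `t * u` has a fixed point
  obtain ⟨c2, hc2⟩ : ∃ c : Ω, (t * u) • c = c := by
    obtain ⟨c1, hc1⟩ : ∃ c : Ω, t • c ≠ c := by
      by_contra! hh
      exact t1 (h.faith t hh)
    obtain ⟨g, g1, g2⟩ := h.t2 c1 (t • c1) a (u • a) hc1.symm h.ab
    have s2 : g * t * g⁻¹ * (g * t * g⁻¹) = 1 := by rw [conj_mul, t2, mul_one, mul_inv_cancel]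
    have sa : (g * t * g⁻¹) • a = u • a := by rw [← g2, ← g1, mul_smul, mul_smul, inv_smul_smul]
    have sf : (g * t * g⁻¹) • g • a = g • a := by rw [mul_smul, mul_smul, inv_smul_smul, ta]
    have s1 : g * t * g⁻¹ ≠ 1 := fun e => t1 (conj_eq_one_iff.1 e)
    generalize g * t * g⁻¹ = s at s2 sa sf s1
    have sb : s • u • a = a := by rw [← sa, ← mul_smul, s2, one_smul]
    have st := h.conj_inv t1 t2 h.ab.symm ta tb tb ta sa sb
    obtain ⟨l, l1, l2, l3⟩ := he s st sa sb fun c hc e => h.ab (by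
      rw [← sa, h.inv_eq e hc st s1 s2 t1 t2, ta])
    have d1 : ∀ c : Ω, t • c = c → (l⁻¹ * s * l * u) • c = c := fun c hc => by
      rw [mul_smul, mul_smul, mul_smul, l3 _ (pres ut hc), h.uu, inv_smul_smul]
    have s2' : l⁻¹ * s * l * (l⁻¹ * s * l) = 1 := by
      calc l⁻¹ * s * l * (l⁻¹ * s * l) = l⁻¹ * (s * s) * l := by group
        _ = 1 := by rw [s2]; group
    have sf' : (l⁻¹ * s * l) • l⁻¹ • g • a = l⁻¹ • g • a := by
      rw [mul_smul, mul_smul, smul_inv_smul, sf]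
    generalize l⁻¹ * s * l = s at s2' sf' d1
    have d2 := h.sq_of_three (d1 a ta) (d1 _ tb) (d1 c0 c0t) c0a c0b (by
      rw [mul_inv_rev, h.uinv, inv_eq_of_mul_eq_one_right s2', mul_assoc, mul_assoc, h.u2, mul_one])
    have d3 : s * u = t := h.inv_eq (d1 a ta) ta (h.abel h.ab (d1 a ta) ta (d1 _ tb) tb) (fun e => by
      rw [mul_eq_one_iff_eq_inv, h.uinv] at e
      exact h.ufpf _ (e ▸ sf')) d2 t1 t2
    exact ⟨_, by rw [← d3, mul_assoc, h.u2, mul_one]; exact sf'⟩
  -- step 2: an element commuting with `u` and moving a fixed point of `t`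
  obtain ⟨k, ka, ku, c3, c3t, kc3⟩ : ∃ k : G, k • a = a ∧ k * u = u * k ∧
      ∃ c : Ω, t • c = c ∧ k • c ≠ c := by
    obtain ⟨k, ka, kb, ⟨c, ct, kc⟩, kk⟩ := hf
    have ka' : (u * k * u) • a = a := by rw [mul_smul, mul_smul, kb, h.uu]
    have kb' : (u * k * u) • u • a = u • a := by rw [mul_smul, mul_smul, h.uu, ka]
    have hc : Commute k⁻¹ (u * k * u) := (h.abel h.ab (fix_inv ka) ka' (fix_inv kb) kb')
    have hp : ∀ j : ℕ, (k⁻¹ * (u * k * u)) ^ j * u = (k ^ j)⁻¹ * u * (k ^ j)⁻¹⁻¹ := fun j => by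
      have : u * k * u = u * k * u⁻¹ := by rw [h.uinv]
      rw [hc.mul_pow, this, conj_pow, inv_pow]
      group
    have ea : (k⁻¹ * (u * k * u)) • a = a := by rw [mul_smul, ka', fix_inv ka]
    have eb : (k⁻¹ * (u * k * u)) • u • a = u • a := by rw [mul_smul, kb', fix_inv kb]
    generalize k⁻¹ * (u * k * u) = e at hp ea eb
    obtain ⟨j, hj | hj⟩ := Nat.even_or_odd' (orderOf e)
    · exfalso
      have j0 := orderOf_pos e
      have : e ^ j = t := h.inv_eq (fix_pow ea j) ta (h.abel h.ab (fix_pow ea j) ta (fix_pow eb j) tb)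
        (pow_ne_one_of_lt_orderOf (by omega) (by omega))
        (by rw [← pow_add, ← two_mul, ← hj, pow_orderOf_eq_one]) t1 t2
      exact h.cfpf _ c2 (by rw [← hp j, this]; exact hc2)
    · refine ⟨k ^ (2 * j + 1), fix_pow ka _, ?_, c, ct, ?_⟩
      · have := hp (2 * j + 1)
        rw [← hj, pow_orderOf_eq_one, one_mul, hj, inv_inv, mul_assoc, eq_inv_mul_iff_mul_eq] at this
        exact this
      · rw [pow_succ', mul_smul, pow_even_fix (kk c ct)]
        exact kc
  -- step 3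
  obtain ⟨κ, hκ⟩ := gen_of_le (L := stabilizer G a ⊓ centralizer {u}) (h.kcyc h.ab) fun x hx =>
    ⟨hx.1, by
      change x • u • a = u • a
      rw [← mul_smul, ← hx.2 u rfl, mul_smul, mem_stabilizer_iff.1 hx.1]⟩
  have mem : ∀ x : G, x • a = a → x * u = u * x → ∃ n : ℕ, κ ^ n = x := fun x xa xu =>
    nat_pow (hκ ▸ ⟨xa, by rintro _ rfl; exact xu.symm⟩)
  have hκ' : κ ∈ stabilizer G a ⊓ centralizer {u} := hκ ▸ mem_zpowers κ
  have κa : κ • a = a := hκ'.1
  have κu : κ * u = u * κ := (hκ'.2 u rfl).symm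
  obtain ⟨m, hm⟩ := mem t ta ut.symm
  have κt : κ * t = t * κ := by rw [← hm]; exact (Commute.self_pow κ m).eq
  have κ1 : ∃ c : Ω, t • c = c ∧ κ • c ≠ c := by
    obtain ⟨i, rfl⟩ := mem k ka ku
    exact ⟨c3, c3t, fun e => kc3 (fix_pow e i)⟩
  obtain ⟨κ2, κ3⟩ := hd κ κt κa κu κ1
  obtain ⟨m, rfl | rfl⟩ := Nat.even_or_odd' m
  swap
  · obtain ⟨c, ct, hc⟩ := κ1
    refine hc ?_
    have := ct
    rwa [← hm, pow_succ', mul_smul, pow_even_fix (κ2 c ct)] at this
  obtain ⟨w, hw, rfl⟩ := h.tr c2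
  have wu := h.comm hw h.uA
  have x1 : (w⁻¹ * (t * u) * w) • a = a := by rw [mul_smul, mul_smul, hc2, inv_smul_smul]
  have xu : w⁻¹ * (t * u) * w * u = u * (w⁻¹ * (t * u) * w) := by
    calc w⁻¹ * (t * u) * w * u = w⁻¹ * (t * u) * (w * u) := by group
      _ = w⁻¹ * u * (t * u) * w := by rw [wu, ← ut]; nth_rewrite 2 [ut]; group
      _ = _ := by rw [h.comm (inv_mem hw) h.uA]; group
  have tu2 : t * u * (t * u) = 1 := by
    rw [mul_assoc, ← mul_assoc u, ut, mul_assoc, h.u2, mul_one, t2]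
  have w1 : w⁻¹ * (t * u) * w = t := h.inv_eq x1 ta (h.abel h.ab x1 ta
    (by rw [← mul_smul, xu, mul_smul, x1]) tb) (fun e => h.ab (by
      have e' : t * u = 1 := by rw [← conj_eq_one_iff (a := w⁻¹), inv_inv, e]
      rw [← tb, ← mul_smul, e', one_smul]))
    (by calc w⁻¹ * (t * u) * w * (w⁻¹ * (t * u) * w) = w⁻¹ * (t * u * (t * u)) * w := by group
      _ = 1 := by rw [tu2]; group) t1 t2
  have w2 : w * t * w⁻¹ = t * u := by rw [← w1, w1]; nth_rewrite 1 [← w1]; group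
  have w3 : t * w = w * (t * u) := by
    have : t * w * u = w * t := by rw [mul_assoc, wu, ← mul_assoc, ← w2]; group
    rw [← mul_assoc, ← this, mul_assoc _ u, h.u2, mul_one]
  have k'u : w * κ * w⁻¹ * u = u * (w * κ * w⁻¹) := by
    rw [mul_assoc, h.comm (inv_mem hw) h.uA, ← mul_assoc, mul_assoc w, κu, ← mul_assoc, wu]
    group
  have k't : w * κ * w⁻¹ * t = t * (w * κ * w⁻¹) := by
    have : w * κ * w⁻¹ * (t * u) = t * u * (w * κ * w⁻¹) := by
      rw [← w2, conj_mul, conj_mul, κt]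
    rw [mul_assoc t, ← k'u, ← mul_assoc, ← mul_assoc t] at this
    exact mul_right_cancel this
  obtain ⟨z0, hz0, z0t, z0a⟩ := h.trA t1 t2 ta ut.symm (pres k't ta)
  obtain ⟨j, hj⟩ := mem (z0⁻¹ * (w * κ * w⁻¹)) (by rw [mul_smul, ← z0a, inv_smul_smul])
    (by rw [mul_assoc, k'u, ← mul_assoc, h.comm (inv_mem hz0) h.uA, mul_assoc])
  have hj' : w * κ * w⁻¹ = z0 * κ ^ j := by rw [hj]; group
  obtain ⟨j, rfl | rfl⟩ := Nat.even_or_odd' j
  swap
  · have e1 : ∀ c : Ω, t • c = c → (w * κ * w⁻¹) • c = z0 • κ • c := fun c ct => by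
      rw [hj', mul_smul, pow_succ', mul_smul, pow_even_fix (κ2 c ct)]
    have e2 := pow_even_fix (k := w * κ * w⁻¹) (c := a) (by
      rw [e1 _ (pres k't ta), e1 a ta, κ3 z0 hz0 z0t _ (pres κt ta), smul_inv_smul, κ2 a ta]) m
    rw [conj_pow, hm, w2, mul_smul, tb] at e2
    exact h.ab e2.symm
  obtain ⟨z, hz, zt, rfl⟩ := h.trA t1 t2 ta ut.symm c0t
  have e1 : ∀ c : Ω, t • c = c → (w * κ * w⁻¹) • c = z0 • c := fun c ct => by
    rw [hj', mul_smul, pow_even_fix (κ2 c ct)]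
  have e2 : ∀ c : Ω, (t * u) • c = c → κ • z • c = z • κ • c := fun c hc => by
    have h1 : t • w • c = w • c := by rw [← mul_smul, w3, mul_smul, hc]
    have h2 := e1 _ (pres zt h1)
    rw [← mul_smul z0, h.comm hz0 hz, mul_smul z, ← e1 _ h1, ← mul_smul z w, h.comm hz hw] at h2
    simp only [mul_smul, inv_smul_smul] at h2
    rw [← mul_smul z w, h.comm hz hw, mul_smul] at h2
    exact MulAction.injective w h2
  have e3 : ∀ (i : ℕ) (c : Ω), (t * u) • c = c → κ ^ i • z • c = z • κ ^ i • c := fun i => by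
    induction i with
    | zero => simp
    | succ i ih =>
      intro c hc
      rw [pow_succ, mul_smul, mul_smul, e2 c hc, ih]
      rw [← mul_smul, mul_assoc, ← κu, ← mul_assoc, ← κt, mul_assoc, mul_smul, hc]
  have e4 : (w * κ * w⁻¹) • z • w • a = z⁻¹ • (w * κ * w⁻¹) • w • a := by
    rw [← mul_smul z, h.comm hz hw]
    simp only [mul_smul, inv_smul_smul]
    rw [κ3 z hz zt a ta, ← mul_smul w, h.comm hw (inv_mem hz), mul_smul]
  have e5 := e3 (2 * j) _ hc2
  rw [hj, mul_smul, e4, ← mul_smul, h.comm (inv_mem hz0) (inv_mem hz), mul_smul, ← mul_smul z0⁻¹,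
    inv_smul_eq_iff, ← mul_smul z z] at e5
  have zz := h.sr (mul_mem hz hz) e5.symm
  exact c0b (by rw [cyc_inv h.cyc hz h.uA (fun e => c0a (by rw [e, one_smul])) zz h.u1 h.u2])

end St

/-- The centraliser of `t` acts on the fixed points of `t`. -/
instance fixAct (t : G) : MulAction (centralizer ({t} : Set G)) {c : Ω // t • c = c} where
  smul g c := ⟨(g : G) • c.1, by rw [← mul_smul, g.2 t rfl, mul_smul, c.2]⟩
  one_smul c := Subtype.ext (one_smul G c.1)
  mul_smul g g' c := Subtype.ext (mul_smul (g : G) (g' : G) c.1)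

theorem good_aux (n : ℕ) : ∀ {G Ω : Type u} [Group G] [Finite G] [MulAction G Ω] [Finite Ω]
    {A : Subgroup G} {u : G} {a : Ω}, Nat.card Ω = n → St A u a → Good A u a := by
  induction n using Nat.strong_induction_on with
  | _ n ih =>
  intro G Ω _ _ _ _ A u a hn h
  obtain ⟨t, t1, t2, ta, tb⟩ := h.exists_t
  by_cases h2 : ∀ c : Ω, t • c = c → c = a ∨ c = u • a
  · exact h.good_two t1 t2 ta tb h2
  exfalso
  push Not at h2
  obtain ⟨c0, c0t, c0a, c0b⟩ := h2
  have ut := h.conj_inv t1 t2 h.ab.symm ta tb tb ta rfl (h.uu a)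
  have mk : ∀ {g : G}, g * t = t * g → g ∈ centralizer ({t} : Set G) := fun e => by
    rintro _ rfl; exact e.symm
  let H := centralizer ({t} : Set G)
  let Δ := {c : Ω // t • c = c}
  let ρ := (toPermHom H Δ).rangeRestrict
  have hρ : Function.Surjective ρ := MonoidHom.rangeRestrict_surjective _
  have ρs : ∀ (g : H) (c : Δ), (ρ g • c).1 = (g : G) • c.1 := fun _ _ => rfl
  have ext : ∀ {x y : (toPermHom H Δ).range}, (∀ c : Δ, x • c = y • c) → x = y := fun e =>
    Subtype.ext (Equiv.ext e)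
  have hlt : Nat.card Δ < n := by
    obtain ⟨c1, hc1⟩ : ∃ c : Ω, t • c ≠ c := by
      by_contra! hh
      exact t1 (h.faith t hh)
    rw [← hn]
    exact Finite.card_subtype_lt hc1
  have hS : St ((A.subgroupOf H).map ρ) (ρ ⟨u, mk ut⟩) (⟨a, ta⟩ : Δ) := by
    refine ⟨fun g hg => ext fun c => by rw [hg, one_smul], fun c d c' d' cd cd' => ?_, ?_, ?_,
      fun c => ?_, ⟨_, h.uA, rfl⟩, fun e => ?_, ?_, ⟨⟨c0, c0t⟩, fun e => c0a (congrArg Subtype.val e),
        fun e => c0b (congrArg Subtype.val e)⟩⟩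
    · obtain ⟨g, g1, g2⟩ := h.t2 c.1 d.1 c'.1 d'.1 (fun e => cd (Subtype.ext e))
        (fun e => cd' (Subtype.ext e))
      exact ⟨ρ ⟨g, mk (h.conj_inv t1 t2 (fun e => cd' (Subtype.ext e)) c.2 d.2 c'.2 d'.2 g1 g2)⟩,
        Subtype.ext g1, Subtype.ext g2⟩
    · haveI := h.z
      haveI : IsZGroup ((stabilizer G a).subgroupOf H) := IsZGroup.of_injective
        (f := (H.subtype.comp ((stabilizer G a).subgroupOf H).subtype).codRestrict (stabilizer G a)
          fun x => x.2) fun x y e => Subtype.ext (Subtype.ext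
            (congrArg (fun z : stabilizer G a => (z : G)) e))
      have e : ((stabilizer G a).subgroupOf H).map ρ =
          stabilizer (toPermHom H Δ).range (⟨a, ta⟩ : Δ) := by
        ext x
        obtain ⟨g, rfl⟩ := hρ x
        refine ⟨?_, fun hg => ⟨g, congrArg Subtype.val hg, rfl⟩⟩
        rintro ⟨g', hg', e⟩
        rw [← e]
        exact Subtype.ext hg'
      rw [← e]
      exact IsZGroup.of_surjective (ρ.subgroupMap_surjective _)
    · haveI := h.cyc
      haveI : IsCyclic (A.subgroupOf H) := isCyclic_of_injective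
        ((H.subtype.comp (A.subgroupOf H).subtype).codRestrict A fun x => x.2)
        fun x y e => Subtype.ext (Subtype.ext (congrArg (fun z : A => (z : G)) e))
      exact isCyclic_of_surjective _ (ρ.subgroupMap_surjective _)
    · obtain ⟨z, hz, zt, za⟩ := h.trA t1 t2 ta ut.symm c.2
      exact ⟨_, ⟨⟨z, mk zt⟩, hz, rfl⟩, Subtype.ext za⟩
    · have := ρs ⟨u, mk ut⟩ ⟨a, ta⟩
      rw [e, one_smul] at this
      exact h.ab this
    · rw [← map_mul, ← map_one ρ]
      exact congrArg ρ (Subtype.ext h.u2)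
  have hG := ih _ hlt rfl hS
  refine h.contra t1 t2 ta tb c0t c0a c0b (fun k kt ka ku ⟨c, ct, kc⟩ => ?_)
    (fun s st sa sb sf => ?_) ?_
  · obtain ⟨h1, h3⟩ := hG.d (ρ ⟨k, mk kt⟩) (Subtype.ext ka)
      (by rw [← map_mul, ← map_mul]; exact congrArg ρ (Subtype.ext ku)) (fun e => by
        have := ρs ⟨k, mk kt⟩ ⟨c, ct⟩
        rw [e, one_smul] at this
        exact kc this.symm)
    refine ⟨fun c ct => ?_, fun z hz zt c ct => ?_⟩
    · have := congrArg (fun x => (x • (⟨c, ct⟩ : Δ)).1) h1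
      simpa only [mul_smul, ρs, one_smul] using this
    · have := h3 _ ⟨⟨z, mk zt⟩, hz, rfl⟩
      rw [mul_inv_eq_iff_eq_mul, ← map_inv] at this
      have := congrArg (fun x => (x • (⟨c, ct⟩ : Δ)).1) this
      simpa only [mul_smul, ρs, coe_inv] using this
  · obtain ⟨l, l1, l2, e⟩ := hG.e (ρ ⟨s, mk st⟩) (Subtype.ext sa) (Subtype.ext sb)
      fun c e => sf c.1 c.2 (congrArg Subtype.val e)
    obtain ⟨l, rfl⟩ := hρ l
    refine ⟨l, congrArg Subtype.val l1, congrArg Subtype.val l2, fun c ct => ?_⟩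
    rw [eq_mul_inv_iff_mul_eq] at e
    have := congrArg (fun x => (x • (⟨c, ct⟩ : Δ)).1) e
    simpa only [mul_smul, ρs] using this
  · obtain ⟨k, k1, k2, k3, k4⟩ := hG.f
    obtain ⟨k, rfl⟩ := hρ k
    refine ⟨k, congrArg Subtype.val k1, congrArg Subtype.val k2, ?_, fun c ct => ?_⟩
    · by_contra! hh
      exact k3 (ext fun c => Subtype.ext (hh c.1 c.2))
    · have := congrArg (fun x => (x • (⟨c, ct⟩ : Δ)).1) k4
      simpa only [mul_smul, ρs, one_smul] using this

theorem St.good {A : Subgroup G} {u : G} {a : Ω} (h : St A u a) : Good A u a := good_aux _ rfl h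

end Cfsg.Agent.H15Z
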