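import Cfsg.Agent.H15Z.C
import Cfsg.Agent.H2.Perm1
import Cfsg.Agent.S0730
import Cfsg.Agent.S0493

/-! The group-theoretic consequences of the sharply 3-transitive structure. -/

set_option autoImplicit false
set_option linter.unusedSectionVars false
set_option linter.style.haveILetI false

namespace Cfsg.Agent.H15Z

open Subgroup MulAction

universe u

theorem sol_of_normal {G : Type*} [Group G] (N : Subgroup G) [N.Normal] (h1 : Group.IsSolvable N)
    (h2 : Group.IsSolvable (G ⧸ N)) : Group.IsSolvable G :=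
  solvable_of_ker_le_range N.subtype (QuotientGroup.mk' N) (by simp)

theorem sol_of_lt (n : ℕ) : ∀ (G : Type u) [Group G] [Finite G], Nat.card G = n → n < 60 →
    Group.IsSolvable G := by
  induction n using Nat.strong_induction_on with
  | _ n ih =>
    intro G _ _ hn h
    by_contra hs
    have ih' : ∀ (H : Type u) [Group H] [Finite H], Nat.card H < Nat.card G → Group.IsSolvable H :=
      fun H _ _ hH => ih _ (hn ▸ hH) H rfl (by omega)
    haveI : Nontrivial G := not_subsingleton_iff_nontrivial.1 fun _ => hs inferInstance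
    haveI : IsSimpleGroup G := by
      refine ⟨fun N hN => ?_⟩
      by_contra hc
      push Not at hc
      have h1 := N.card_mul_index
      have h2 := N.one_lt_card_iff_ne_bot.2 hc.1
      have h3 := N.one_lt_index_of_ne_top hc.2
      exact hs (sol_of_normal N (ih' _ (by nlinarith)) (ih' _ (by change N.index < _; nlinarith)))
    have := S0493.result (G := G) (fun hc => hs (isSolvable_of_comm
      IsCyclic.commutative.is_comm.comm)) (by omega)
    omega

variable {G Ω : Type u} [Group G] [Finite G] [MulAction G Ω] [Finite Ω]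

/-- What is used of the conclusion. -/
structure Top (B : Subgroup G) (p : ℕ) (v : G) : Prop where
  prime : p.Prime
  ne2 : p ≠ 2
  idx : B.index = p + 1
  coatom : IsCoatom B
  v1 : v ≠ 1
  vp : v ^ p = 1
  nrm : ∀ g ∈ B, g * v * g⁻¹ ∈ zpowers v
  syl : ∀ x : G, x ^ p = 1 → ∃ g : G, g⁻¹ * x * g ∈ zpowers v
  nm : ∀ N : Subgroup G, N.Normal → N ⊓ B ≠ ⊥ → v ∈ N
  big : ¬ Group.IsSolvable G → 3 < p
  iso : ∃ (F : Type) (_ : Field F) (_ : Fintype F), Fintype.card F = p ∧
    Nonempty (G ≃* Matrix.ProjGenLinGroup (Fin 2) F)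

theorem St.top {A : Subgroup G} {u : G} {a : Ω} (h : St A u a) :
    ∃ p v, Top (stabilizer G a) p v := by
  classical
  have hG := h.good
  obtain ⟨v, hv⟩ := gen_of_le (h.ucyc a) le_rfl
  have va : ∀ {x : G}, x ∈ zpowers v → x • a = a := fun hx => St.ufix (hv ▸ hx)
  have vs : ∀ {x : G}, x ∈ zpowers v → x • u • a = u • a → x = 1 := fun hx => h.semi h.ab (hv ▸ hx)
  have vc : ∀ {x g : G}, x ∈ zpowers v → g • a = a → g * x * g⁻¹ ∈ zpowers v := fun hx hg =>
    hv ▸ St.uconj (hv ▸ hx) hg
  have vt : ∀ c, c ≠ a → ∃ x ∈ zpowers v, x • u • a = c := hv ▸ hG.U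
  have vn : ∀ {x : G}, x • a = a → x • u • a ≠ a := fun hx e =>
    h.ufpf a (MulAction.injective _ (e.trans hx.symm))
  have hcard : orderOf v + 1 = Nat.card Ω := by
    have : Function.Bijective (fun x : zpowers v => (⟨(x : G) • u • a, vn (va x.2)⟩ : {c // c ≠ a})) := by
      refine ⟨fun x y e => Subtype.ext ?_, fun c => ?_⟩
      · have e : (x : G) • u • a = (y : G) • u • a := congrArg Subtype.val e
        exact inv_mul_eq_one.1 (vs (mul_mem (inv_mem x.2) y.2) (by rw [mul_smul, ← e, inv_smul_smul]))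
      · obtain ⟨x, hx, e⟩ := vt c.1 c.2
        exact ⟨⟨x, hx⟩, Subtype.ext e⟩
    rw [← Nat.card_zpowers, Nat.card_eq_of_bijective _ this, ← Finite.card_option,
      Nat.card_congr (Equiv.optionSubtypeNe a)]
  have v1 : v ≠ 1 := by
    rintro rfl
    obtain ⟨c, ca, cb⟩ := h.three
    obtain ⟨x, hx, e⟩ := vt c ca
    rw [zpowers_one_eq_bot, mem_bot] at hx
    rw [hx, one_smul] at e
    exact cb e.symm
  have hp : (orderOf v).Prime := by
    haveI := Fact.mk (Nat.minFac_prime (mt orderOf_eq_one_iff.1 v1))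
    obtain ⟨⟨x, hx⟩, e⟩ := exists_prime_orderOf_dvd_card' (G := zpowers v) (orderOf v).minFac
      (by rw [Nat.card_zpowers]; exact Nat.minFac_dvd _)
    rw [orderOf_mk] at e
    have x1 : x ≠ 1 := by
      rintro rfl
      exact (Fact.out : (orderOf v).minFac.Prime).one_lt.ne (by rw [← e, orderOf_one])
    obtain ⟨k, k1, k2, k3⟩ := hG.t3 _ _ (vn (va hx)) (mt (vs hx) x1) (vn (va (mem_zpowers v)))
      (mt (vs (mem_zpowers v)) v1)
    have := vs (mul_mem (inv_mem (mem_zpowers v)) (vc hx k1)) (by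
      rw [mul_smul, mul_smul, mul_smul, fix_inv k2, k3, inv_smul_smul])
    rw [inv_mul_eq_one] at this
    have e2 : orderOf v = orderOf x := by
      nth_rewrite 1 [this]
      exact (MulAut.conj k).orderOf_eq x
    rw [e2, e]
    exact Fact.out
  have vp := pow_orderOf_eq_one v
  have vg : ∀ {x : G}, x ∈ zpowers v → x ≠ 1 → v ∈ zpowers x := fun {x} hx x1 => by
    haveI := Fact.mk hp
    have h1 : zpowers x = zpowers v := eq_of_le_of_card_ge (zpowers_le.2 hx) (by
      rw [Nat.card_zpowers, Nat.card_zpowers]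
      have := orderOf_dvd_of_mem_zpowers hx
      exact (((Nat.dvd_prime hp).1 this).resolve_left (mt orderOf_eq_one_iff.1 x1)).ge)
    exact h1 ▸ mem_zpowers v
  generalize orderOf v = p at hcard hp vp
  haveI := Fact.mk hp
  have kp : ∀ k : G, k • a = a → k • u • a = u • a → k ^ p = 1 → k = 1 := fun k ka kb kp => by
    by_contra k1
    have h1 := (pg_of_pow kp).card_modEq_card_fixedPoints Ω
    have h2 : fixedPoints (zpowers k) Ω = {a, u • a} := by
      ext c
      refine ⟨fun hc => ?_, ?_⟩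
      · by_contra hh
        simp only [Set.mem_insert_iff, Set.mem_singleton_iff, not_or] at hh
        exact k1 (hG.sh k c ka kb hh.1 hh.2 (hc ⟨k, mem_zpowers k⟩))
      · rintro (rfl | rfl) ⟨_, j, rfl⟩
        · exact fix_zpow ka j
        · exact fix_zpow kb j
    rw [h2, Nat.card_coe_set_eq, Set.ncard_pair h.ab, ← hcard] at h1
    have h3 : p ∣ p + 1 - 2 := (Nat.modEq_iff_dvd' (by have := hp.two_le; omega)).1 h1.symm
    have := Nat.le_of_dvd (by
      have := hp.two_le
      have := h.even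
      rw [← hcard] at this
      omega) h3
    have := hp.two_le
    omega
  have p2 : p ≠ 2 := by
    have := h.even
    rw [← hcard] at this
    omega
  haveI : IsPretransitive G Ω := ⟨fun c d => by
    obtain ⟨y, -, rfl⟩ := h.tr c
    obtain ⟨z, -, rfl⟩ := h.tr d
    exact ⟨z * y⁻¹, by rw [mul_smul, inv_smul_smul]⟩⟩
  have hinj : Function.Injective (toPermHom G Ω) := (injective_iff_map_eq_one _).2 fun g hg =>
    h.faith g fun c => congrArg (fun f : Equiv.Perm Ω => f c) hg
  haveI := Fintype.ofFinite Ω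
  refine ⟨p, v, hp, p2, by rw [index_stabilizer_of_transitive, hcard], ⟨fun e => ?_, fun M hM => ?_⟩,
    v1, vp, fun g hg => vc (mem_zpowers v) hg, fun x hx => ?_, fun N hN hne => ?_, fun hs => ?_, ?_⟩
  · exact h.ufpf a (mem_stabilizer_iff.1 (e ▸ mem_top u))
  · obtain ⟨x, hx, xa⟩ := SetLike.exists_of_lt hM
    refine eq_top_iff.2 fun g _ => ?_
    by_cases ga : g • a = a
    · exact hM.le ga
    obtain ⟨k, k1, k2⟩ := h.t2 a (x • a) a (g • a) (Ne.symm xa) (Ne.symm ga)
    have : g⁻¹ * k * x ∈ M := hM.le (by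
      rw [mem_stabilizer_iff, mul_smul, mul_smul, k2, inv_smul_smul])
    exact inv_mem_iff.1 ((mul_mem_cancel_right (hM.le k1)).1 ((mul_mem_cancel_right hx).1 this))
  · obtain ⟨c, hc⟩ := exists_fix (Ω := Ω) hp hx (by
      rw [← hcard, Nat.dvd_add_right dvd_rfl, Nat.dvd_one]; exact hp.one_lt.ne')
    obtain ⟨g, -, rfl⟩ := h.tr c
    refine ⟨g, ?_⟩
    have x1 : (g⁻¹ * x * g) • a = a := by rw [mul_smul, mul_smul, hc, inv_smul_smul]
    have x2 : (g⁻¹ * x * g) ^ p = 1 := by
      have := conj_pow (a := g⁻¹) (b := x) (i := p)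
      rw [inv_inv] at this
      rw [this, hx, mul_one, inv_mul_cancel]
    generalize g⁻¹ * x * g = x at x1 x2
    obtain ⟨w, hw, e⟩ := vt _ (vn x1)
    have h1 : ∀ m : ℕ, (w⁻¹ * x) ^ m * (x ^ m)⁻¹ ∈ zpowers v := fun m => by
      induction m with
      | zero => simp
      | succ m ih =>
        have := mul_mem ih (vc (inv_mem hw) (fix_pow x1 m))
        convert this using 1
        rw [pow_succ, pow_succ]
        group
    have kb : (w⁻¹ * x) • u • a = u • a := by rw [mul_smul, ← e, inv_smul_smul]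
    have h2 := h1 p
    rw [x2, inv_one, mul_one] at h2
    have := kp _ (by rw [mul_smul, x1, fix_inv (va hw)]) kb (vs h2 (fix_pow kb p))
    exact inv_mul_eq_one.1 this ▸ hw
  · obtain ⟨⟨x, hx, xa⟩, x1⟩ := ne_bot_iff_exists_ne_one.1 hne
    have x1 : x ≠ 1 := fun e => x1 (Subtype.ext e)
    by_cases hc : x * v * x⁻¹ * v⁻¹ = 1
    · obtain ⟨w, hw, e⟩ := vt _ (vn xa)
      have hc' : Commute x v := by rwa [mul_inv_eq_one, mul_inv_eq_iff_eq_mul] at hc
      have : w⁻¹ * x = 1 := h.faith _ fun d => by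
        by_cases da : d = a
        · rw [da, mul_smul, mem_stabilizer_iff.1 xa, fix_inv (va hw)]
        obtain ⟨_, ⟨j, rfl⟩, rfl⟩ := vt d da
        obtain ⟨i, rfl⟩ := hw
        rw [mul_smul, ← mul_smul x, (hc'.zpow_right j).eq, mul_smul, ← e, inv_smul_eq_iff, ← mul_smul,
          ← mul_smul, ← mul_smul, ← mul_smul, (Commute.zpow_zpow_self v i j).eq]
      rw [← inv_mul_eq_one.1 this] at hx x1
      exact zpowers_le.2 hx (vg hw x1)
    · refine zpowers_le.2 ?_ (vg (mul_mem (vc (mem_zpowers v) xa) (inv_mem (mem_zpowers v))) hc)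
      rw [mul_assoc, mul_assoc, ← mul_assoc v]
      exact mul_mem hx (hN.conj_mem _ (inv_mem hx) v)
  · by_contra h3
    have : p = 3 := by have := hp.two_le; omega
    have h4 := Nat.card_le_card_of_injective _ hinj
    rw [Nat.card_perm, ← hcard, this] at h4
    exact hs (sol_of_lt _ G rfl (h4.trans_lt (by decide)))
  · have nf : ∀ c d e : Ω, c ≠ d → c ≠ e → d ≠ e → ∃ g : G, g • a = c ∧ g • u • a = d ∧
        g⁻¹ • e ≠ a ∧ g⁻¹ • e ≠ u • a := fun c d e cd ce de => by
      obtain ⟨g, g1, g2⟩ := h.t2 a (u • a) c d h.ab cd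
      exact ⟨g, g1, g2, fun e => ce (g1.symm.trans (inv_smul_eq_iff.1 e).symm),
        fun e => de (g2.symm.trans (inv_smul_eq_iff.1 e).symm)⟩
    obtain ⟨F, _, _, hF, ⟨φ⟩⟩ := S0730.result hp p2 odd_one
      (by rw [pow_one, hcard, Nat.card_eq_fintype_card]) (toPermHom G Ω).range
      (H2.Pm.mt_three_iff.2 fun c d e c' d' e' h1 h2 h3 h4 h5 h6 => by
        obtain ⟨g, rfl, rfl, g3, g4⟩ := nf c d e h1 h2 h3
        obtain ⟨g', rfl, rfl, g3', g4'⟩ := nf c' d' e' h4 h5 h6
        obtain ⟨k, k1, k2, k3⟩ := hG.t3 _ _ g3 g4 g3' g4'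
        refine ⟨⟨_, g' * k * g⁻¹, rfl⟩, ?_, ?_, ?_⟩
        · change (g' * k * g⁻¹) • g • a = g' • a
          rw [mul_smul, mul_smul, inv_smul_smul, k1]
        · change (g' * k * g⁻¹) • g • u • a = g' • u • a
          rw [mul_smul, mul_smul, inv_smul_smul, k2]
        · change (g' * k * g⁻¹) • e = e'
          rw [mul_smul, mul_smul, k3, smul_inv_smul])
      (fun x => eq_bot_iff.2 fun ⟨_, k, rfl⟩ hk => by
        have hk : ∀ i, k • x i = x i := fun i => congrArg (fun f : Fin 3 ↪ Ω => f i) hk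
        obtain ⟨g, g1, g2, g3, g4⟩ := nf (x 0) (x 1) (x 2) (x.injective.ne (by decide))
          (x.injective.ne (by decide)) (x.injective.ne (by decide))
        have := hG.sh (g⁻¹ * k * g) _ (by rw [mul_smul, mul_smul, g1, hk, ← g1, inv_smul_smul])
          (by rw [mul_smul, mul_smul, g2, hk, ← g2, inv_smul_smul]) g3 g4
          (by rw [mul_smul, mul_smul, smul_inv_smul, hk])
        have k1 : k = 1 := by rw [← conj_eq_one_iff (a := g⁻¹), inv_inv, this]
        subst k1
        exact Subtype.ext (map_one _))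
    exact ⟨F, _, _, by rw [hF, pow_one], ⟨(MonoidHom.ofInjective hinj).trans φ⟩⟩

end Cfsg.Agent.H15Z
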